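import Cfsg.Agent.Spor.J4C

/-! Relators in the involution centraliser of the fourth Janko group (generated certificate, helper23). -/

set_option Elab.async false
set_option maxRecDepth 100000
set_option exponentiation.threshold 100000

namespace Cfsg.Agent.Spor.J4R

open Equiv


def eM0 : List (Ex × List Ex) := [((.mul (.mul (.sq (.mul (.lt 0) (.lt 24))) (.sq (.mul (.sq (.mul (.lt 21) (.lt 18))) (.mul (.lt 21) (.lt 0))))) (.mul (.sq (.mul (.mul (.lt 21) (.lt 18)) (.mul (.lt 21) (.lt 23)))) (.mul (.mul (.mul (.sq (.mul (.lt 21) (.lt 23))) (.mul (.lt 21) (.lt 18))) (.sq (.mul (.mul (.lt 21) (.lt 18)) (.mul (.lt 21) (.lt 23))))) (.mul (.mul (.mul (.mul (.lt 21) (.lt 23)) (.sq (.mul (.lt 21) (.lt 18)))) (.mul (.sq (.mul (.lt 21) (.lt 23))) (.mul (.lt 21) (.lt 23)))) (.mul (.mul (.sq (.mul (.lt 21) (.lt 18))) (.mul (.lt 21) (.lt 18)))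 (.mul (.mul (.lt 21) (.lt 23)) (.mul (.lt 21) (.lt 24)))))))), []),
  ((.mul (.mul (.mul (.mul (.lt 23) (.mul (.lt 21) (.lt 18))) (.mul (.mul (.lt 24) (.lt 18)) (.mul (.lt 21) (.lt 18)))) (.sq (.mul (.sq (.mul (.lt 21) (.lt 18))) (.mul (.lt 21) (.lt 23))))) (.mul (.mul (.mul (.mul (.sq (.mul (.lt 21) (.lt 23))) (.mul (.lt 21) (.lt 23))) (.lt 24)) (.sq (.sq (.mul (.lt 18) (.lt 21))))) (.mul (.mul (.mul (.mul (.lt 23) (.mul (.lt 21) (.lt 0))) (.mul (.lt 23) (.mul (.lt 21) (.lt 18)))) (.mul (.sq (.mul (.lt 21) (.lt 23))) (.mul (.lt 21) (.lt 23)))) (.mul (.sq (.mul (.lt 21) (.lt 18))) (.lt 24))))), [])]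

theorem heM0 : allL eM0 (fun e => Nat.beq (J4M.D.evE J4C.m2As e.1) (Ct.evO J4M.D J4C.m2As e.2)) = true := by decide +kernel

def eME : List (List ℕ × List ℕ) := eM0.map (fun e => (e.1.w, Ct.ow e.2))

theorem eM : Ct.Eqs J4C.Y eME :=
  (Ct.eqs_M J4C.m2 (by decide +kernel) heM0)

def bs : List (List ℕ) := [[3, 11, 3, 11, 0, 1, 0, 1, 0, 3, 0, 1, 0, 1, 0, 3, 0, 1, 0, 2, 0, 1, 0, 2, 0, 2, 0, 2, 0, 1, 0, 1, 0, 2, 0, 1, 0, 2, 0, 2, 0, 1, 0, 1, 0, 2, 0, 2, 0, 2, 0, 1, 0, 1, 0, 1, 0, 2, 0, 11], [2, 0, 1, 11, 1, 0, 1, 0, 1, 0, 1, 0, 2, 0, 1, 0, 1, 0, 2, 0, 2, 0, 2, 0, 2, 11, 1, 0, 1, 0, 1, 0, 1, 0, 2, 0, 3, 2, 0, 1, 0, 2, 0, 2, 0, 2, 0, 1, 0, 1, 11]]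

theorem hb : ∀ w ∈ bs, ev (Dce.gD J4G.ι J4L.yK J4G.T 11) w = 1 := fun w hw => by
  have h : bs = eME.map fun e => Ct.xp J4C.W1 (J4C.m2E.map Ex.w) e.1 := by decide +kernel
  have h' : ∀ e ∈ eME, e.2 = [] := by decide +kernel
  obtain ⟨e, he, rfl⟩ := List.mem_map.1 (h ▸ hw)
  rw [← Ct.ev_xp, eM e he, h' e he, ev_nil]

end Cfsg.Agent.Spor.J4R
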